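import Cfsg.Agent.S0907
import Cfsg.Agent.S4888
import Cfsg.Agent.Lib.Modular.Basic

/-! Characters of the principal block do not vanish on classes of `p'`-size. -/

set_option autoImplicit false
set_option linter.unusedSectionVars false

namespace Cfsg.Lib.VN

open Cfsg.Lib.Block Cfsg.Lib.Char Subgroup
open scoped ComplexConjugate commutatorElement

variable {G : Type*} [Group G] [Finite G] {p : ℕ} [hp : Fact p.Prime] {M : Ideal AlgInt}

theorem dvd_of_zero (hM : IsPModular p M) {χ : IrrCharacter G} (h : χ ∈ principalBlock M G) {x : G}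
    (hx : (χ : G → ℂ) x = 0) : p ∣ (centralizer ({x} : Set G)).index := by
  have : Modular p M := ⟨hM⟩
  have := h x
  simp only [centralChar, hx, mul_zero, zero_div, sub_zero, mul_one, div_one] at this
  exact (memLocalIdeal_natCast_iff _).1 this

/-- a nonlinear character of the principal block vanishes on a class of size divisible by `p` -/
theorem exists_zero (hM : IsPModular p M) {χ : IrrCharacter G} (h : χ ∈ principalBlock M G)
    (h1 : (χ : G → ℂ) 1 ≠ 1) : ∃ x, (χ : G → ℂ) x = 0 ∧ p ∣ (centralizer ({x} : Set G)).index :=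
  (χ.2.exists_apply_eq_zero h1).imp fun _ hx => ⟨hx, dvd_of_zero hM h hx⟩

/-- an element in the kernel of the principal block is `p`-regular -/
theorem not_dvd_of_ker (hM : IsPModular p M) {y : G}
    (h : ∀ χ : IrrCharacter G, χ ∈ principalBlock M G → (χ : G → ℂ) y = (χ : G → ℂ) 1) : ¬ p ∣ orderOf y := fun hy => by
  classical
  have : Modular p M := ⟨hM⟩
  have e := Cfsg.Agent.S0907.result p M hM _ ⟨irrOne G, rfl⟩ 1 y (by simpa using hp.out.not_dvd_one) hy
  rw [Modular.finsum_mem_irr_eq_sum_filter] at e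
  replace e := (Finset.sum_congr rfl (f := fun χ : IrrCharacter G => ((charDegree (χ : G → ℂ) ^ 2 : ℕ) : ℂ))
    fun χ hχ => by
      rw [h χ (Finset.mem_filter.1 hχ).2, χ.2.isCharacter.apply_one_eq, map_natCast, Nat.cast_pow, sq]).trans e
  rw [← Nat.cast_sum, Nat.cast_eq_zero, Finset.sum_eq_zero_iff] at e
  have := e (irrOne G) (Finset.mem_filter.2 ⟨Finset.mem_univ _, irrOne_mem_principalBlock⟩)
  rw [coe_irrOne, charDegree_one] at this
  exact one_ne_zero this

theorem of_linear (hM : IsPModular p M) (h : ∀ χ : IrrCharacter G, χ ∈ principalBlock M G → (χ : G → ℂ) 1 = 1) :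
    HasNormalPComplement p G ∧ ∀ P : Sylow p G, IsMulCommutative (P : Subgroup G) := by
  refine ⟨(Cfsg.Agent.S4888.result p M hM).1 ⟨1, fun χ h1 _ => χ.2.isCharacter.charDegree_eq_one_iff.2 (h χ h1)⟩,
    fun P => ⟨⟨fun a b => commutatorElement_eq_one_iff_mul_comm.1 ?_⟩⟩⟩
  obtain ⟨k, hk⟩ := IsPGroup.iff_orderOf.1 P.isPGroup' ⁅a, b⁆
  have := not_dvd_of_ker hM (G := G) (y := (⁅a, b⁆ : (P : Subgroup G))) fun χ h1 => by
    obtain ⟨l, e⟩ := χ.2.isCharacter.exists_hom_of_apply_one (h χ h1)
    rw [e]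
    change ((l.comp (P : Subgroup G).subtype) ⁅a, b⁆ : ℂ) = (l 1 : ℂ)
    rw [map_commutatorElement, commutatorElement_eq_one_iff_mul_comm.2 (mul_comm _ _), map_one]
  rw [orderOf_coe, hk] at this
  rcases k with _ | k
  · exact orderOf_eq_one_iff.1 hk
  · exact absurd (dvd_pow_self p k.succ_ne_zero) this

end Cfsg.Lib.VN
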