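import Cfsg.Agent.Lib.Clifford.Correspondence
import Cfsg.Agent.Lib.CharDeg.Ito
import Cfsg.Agent.Lib.Char.Product
import Cfsg.Agent.Lib.Char.Galois
import Cfsg.Agent.Lib.Coprime.SZ

/-!
Elements at which no irreducible character is zero.
-/

set_option autoImplicit false

namespace Cfsg.Lib.VN

open Subgroup Cfsg.Lib.Char Cfsg.Lib.Clifford Cfsg.Lib.Induce

/-- No irreducible character is zero at `y`. -/
def NV {G : Type*} [Group G] (y : G) : Prop := ∀ χ, IsIrrCharacter G χ → χ y ≠ 0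

theorem NV.map {G H : Type*} [Group G] [Group H] {y : G} (h : NV y) (f : G →* H)
    (hf : Function.Surjective f) : NV (f y) := fun _ hχ => h _ (hχ.comp_surjective f hf)

theorem nv_of_center {G : Type*} [Group G] [Finite G] {y : G} (h : y ∈ center G) : NV y := fun χ hχ e => by
  have h1 := apply_eq_centerHom_mul hχ.apply_one_ne_zero ⟨y, hχ.center_le_charCenter h⟩
  exact mul_ne_zero (Units.ne_zero _) hχ.apply_one_ne_zero (h1.symm.trans e)

theorem NV.mem_center (G : Type*) [Group G] [Group.IsNilpotent G] :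
    ∀ [Finite G] (y : G), NV y → y ∈ center G := by
  refine nilpotent_center_quotient_ind (P := fun G _ _ => ∀ [Finite G] (y : G), NV y → y ∈ center G) G
    (fun G _ _ _ y _ => mem_center_iff.2 fun g => Subsingleton.elim _ _) fun G _ _ ih _ y hy => ?_
  have h1 := ih _ (hy.map _ (QuotientGroup.mk'_surjective (center G)))
  refine mem_center_iff.2 fun g => ?_
  have h2 : g * y * g⁻¹ * y⁻¹ ∈ center G := by
    rw [← QuotientGroup.eq_one_iff]
    have := mem_center_iff.1 h1 (g : G ⧸ center G)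
    simp only [QuotientGroup.mk'_apply] at this
    simp [this]
  have h3 : g * y * g⁻¹ * y⁻¹ = 1 := eq_one_of_forall_irr_apply_eq fun χ hχ => by
    have h4 := Cfsg.Lib.Char.Cfsg.IsCharacter.apply_mul_of_mem_charCenter hχ.apply_one_ne_zero (hχ.center_le_charCenter h2) y
    rw [inv_mul_cancel_right, hχ.isClassFunction y g] at h4
    exact (div_eq_one_iff_eq hχ.apply_one_ne_zero).1 (mul_right_cancel₀ (hy χ hχ) (h4.symm.trans (one_mul _).symm))
  rwa [mul_inv_eq_one, mul_inv_eq_iff_eq_mul] at h3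

variable {G : Type*} [Group G] [Finite G] (K : Subgroup G) [hK : K.Normal] {x y : G}

theorem NV.conj_mem_inertia (h : NV x) {θ : K → ℂ} (hθ : IsIrrCharacter K θ) :
    ∃ g : G, g * x * g⁻¹ ∈ inertia K θ := by
  classical
  have := Fintype.ofFinite G
  obtain ⟨χ, -, hχ⟩ := Finset.exists_ne_zero_of_sum_ne_zero ((sum_sq_classInner_res K hθ).trans_ne
    (Nat.cast_ne_zero.2 (FiniteIndex.index_ne_zero)))
  obtain ⟨η, -, e, -⟩ := exists_indFun_eq_of_over K (le_inertia K hθ.isClassFunction) hθ le_rfl χ.2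
    fun h => hχ (by rw [h]; simp)
  by_contra hc
  exact h χ χ.2 (e ▸ indFun_eq_zero_of_not_conj _ η x fun g hg => hc ⟨g, hg⟩)

theorem commute_of_inertia (hc : (orderOf y).Coprime (Nat.card K))
    (h : ∀ θ, IsIrrCharacter K θ → y ∈ inertia K θ) : ∀ k ∈ K, y * k = k * y := by
  letI : MulAction G G := MulAction.compHom G (MulAut.conj : G →* MulAut G)
  have h1 : (centralizer {y}).subgroupOf K = ⊤ := CharDeg.eq_top_of_forall_isConj fun a => by
    obtain ⟨k, hk, e⟩ := Coprime.exists_fixed_point (X := G) (A := zpowers y) (K := K)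
      (by rw [normalizer_eq_top]; exact le_top) (by rwa [Nat.card_zpowers]) (Or.inl inferInstance) (a : G)
      fun b hb => by
        obtain ⟨c, e⟩ := isConj_iff.1 (isConj_of_forall_irr (g := a) (h := ⟨b * a * b⁻¹, hK.conj_mem _ a.2 b⟩)
          fun θ hθ => ((mem_inertia_iff K).1 (zpowers_le.2 (h θ hθ) hb) a).symm)
        exact ⟨c, c.2, (congrArg Subtype.val e).symm⟩
    refine ⟨⟨k, hk⟩ * a * ⟨k, hk⟩⁻¹, ?_, isConj_iff.2 ⟨_, rfl⟩⟩
    have e1 : y * (k * a * k⁻¹) * y⁻¹ = k * a * k⁻¹ := e y (mem_zpowers y)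
    exact mem_centralizer_singleton_iff.2 (mul_inv_eq_iff_eq_mul.1 e1).symm
  intro k hk
  have h2 : (⟨k, hk⟩ : K) ∈ (centralizer {y}).subgroupOf K := h1 ▸ mem_top _
  exact (mem_centralizer_singleton_iff.1 h2).symm

/-- If `G ⧸ K` is nilpotent and `k * y` is nonvanishing, `y` of order prime to `|K|`, then `y` is central. -/
theorem NV.central (hn : Group.IsNilpotent (G ⧸ K)) (hc : (orderOf y).Coprime (Nat.card K)) {k : G} (hk : k ∈ K)
    (h : NV (k * y)) : y ∈ center G := by
  have h1 := NV.mem_center _ _ (h.map _ (QuotientGroup.mk'_surjective K))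
  have h2 : ∀ g : G, g * y * g⁻¹ * y⁻¹ ∈ K := fun g => by
    rw [← QuotientGroup.eq_one_iff]
    have := mem_center_iff.1 h1 (g : G ⧸ K)
    simp only [QuotientGroup.mk'_apply, QuotientGroup.mk_mul, (QuotientGroup.eq_one_iff k).2 hk, one_mul] at this
    simp [this]
  have h3 := commute_of_inertia K hc fun θ hθ => by
    obtain ⟨g, hg⟩ := h.conj_mem_inertia K hθ
    have h4 := le_inertia K hθ.isClassFunction (mul_mem (hK.conj_mem k hk g) (h2 g))
    have h5 := mul_mem (inv_mem h4) hg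
    convert h5 using 1
    group
  refine mem_center_iff.2 fun g => ?_
  have h4 : Commute (g * y * g⁻¹ * y⁻¹) y := (h3 _ (h2 g)).symm
  have h5 : (g * y * g⁻¹ * y⁻¹) ^ orderOf y = 1 := by
    have h6 := h4.mul_pow (orderOf y)
    rw [inv_mul_cancel_right, conj_pow, pow_orderOf_eq_one] at h6
    simpa using h6.symm
  have h6 : (g * y * g⁻¹ * y⁻¹) ^ Nat.card K = 1 :=
    congrArg Subtype.val (pow_card_eq_one' (x := (⟨_, h2 g⟩ : K)))
  have h7 := (pow_eq_one_iff_of_coprime hc).1 ⟨h5, h6⟩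
  rwa [mul_inv_eq_one, mul_inv_eq_iff_eq_mul] at h7

end Cfsg.Lib.VN
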